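import Cfsg.Agent.H58.ThreeUnipotents

/-!
Calculus for the subgroup generated by a regular unipotent `u` and its conjugate by a corner
transvection `t`: the rank one matrices `u ^ i * E * u ^ (-j)` and the transvections lying in the
subgroup.
-/

set_option autoImplicit false

namespace Cfsg.Agent.H9.SLTwo

open Matrix

section Ring

variable {R : Type*} [Ring R] {A B C : R}

/-- The first commutator of the three corner transvections. -/
theorem ring_comm_one (hAA : A * A = 0) (hAB : A * B = 0) (hAC : A * C = 0) (hBB : B * B = 0)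
    (hBC : B * C = 0) (hCC : C * C = 0) :
    (1 - B * A + C * A - C * B + C * B * A) * ((1 + B - C) * (1 + A - B)) =
      (1 + A - B) * (1 + B - C) := by
  have a1 : ∀ x, A * (A * x) = 0 := fun x => by rw [← mul_assoc, hAA, zero_mul]
  have a2 : ∀ x, A * (B * x) = 0 := fun x => by rw [← mul_assoc, hAB, zero_mul]
  have a3 : ∀ x, A * (C * x) = 0 := fun x => by rw [← mul_assoc, hAC, zero_mul]
  have a4 : ∀ x, B * (B * x) = 0 := fun x => by rw [← mul_assoc, hBB, zero_mul]
  have a5 : ∀ x, B * (C * x) = 0 := fun x => by rw [← mul_assoc, hBC, zero_mul]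
  have a6 : ∀ x, C * (C * x) = 0 := fun x => by rw [← mul_assoc, hCC, zero_mul]
  simp only [mul_add, add_mul, mul_sub, sub_mul, one_mul, mul_one, mul_assoc, a1, a2, a3, a4, a5,
    a6, hAA, hAB, hAC, hBB, hBC, hCC, mul_zero, zero_mul, sub_zero, zero_sub, add_zero, zero_add,
    neg_zero]
  abel

/-- The second commutator is a single transvection. -/
theorem ring_comm_two (hAA : A * A = 0) (hAB : A * B = 0) (hAC : A * C = 0) (hBB : B * B = 0)
    (hBC : B * C = 0) :
    (1 - C * B * A) * ((1 + A - B) * (1 - B * A + C * A - C * B + C * B * A)) =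
      (1 - B * A + C * A - C * B + C * B * A) * (1 + A - B) := by
  have a1 : ∀ x, A * (A * x) = 0 := fun x => by rw [← mul_assoc, hAA, zero_mul]
  have a2 : ∀ x, A * (B * x) = 0 := fun x => by rw [← mul_assoc, hAB, zero_mul]
  have a3 : ∀ x, A * (C * x) = 0 := fun x => by rw [← mul_assoc, hAC, zero_mul]
  have a4 : ∀ x, B * (B * x) = 0 := fun x => by rw [← mul_assoc, hBB, zero_mul]
  have a5 : ∀ x, B * (C * x) = 0 := fun x => by rw [← mul_assoc, hBC, zero_mul]
  simp only [mul_add, add_mul, mul_sub, sub_mul, one_mul, mul_one, mul_assoc, a1, a2, a3, a4, a5,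
    hAA, hAB, hAC, hBB, hBC, mul_zero, zero_mul, sub_zero, zero_sub, add_zero, zero_add, neg_zero]
  abel

/-- The commutator of two transvections with one incidence. -/
theorem ring_comm_pair (hAA : A * A = 0) (hBB : B * B = 0) (hBA : B * A = 0) :
    (1 + A) * (1 + B) * ((1 - A) * (1 - B)) = 1 + A * B := by
  have a1 : ∀ x, A * (A * x) = 0 := fun x => by rw [← mul_assoc, hAA, zero_mul]
  have a2 : ∀ x, B * (B * x) = 0 := fun x => by rw [← mul_assoc, hBB, zero_mul]
  have a3 : ∀ x, B * (A * x) = 0 := fun x => by rw [← mul_assoc, hBA, zero_mul]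
  simp only [mul_add, add_mul, mul_sub, sub_mul, one_mul, mul_one, mul_assoc, a1, a2, a3, hAA, hBB,
    hBA, mul_zero, sub_zero, zero_sub, add_zero, zero_add, neg_zero]
  abel

end Ring

variable {F : Type*} [Field F] {m : ℕ}

local notation "SLm" => SpecialLinearGroup (Fin (m + 1)) F
local notation "Mm" => Matrix (Fin (m + 1)) (Fin (m + 1)) F

/-- The underlying matrix, as a homomorphism. -/
def mat : SpecialLinearGroup (Fin (m + 1)) F →* Matrix (Fin (m + 1)) (Fin (m + 1)) F where
  toFun x := x.1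
  map_one' := rfl
  map_mul' _ _ := rfl

theorem mat_mul_inv (x : SLm) : mat x * mat x⁻¹ = 1 := by rw [← map_mul, mul_inv_cancel, map_one]

theorem mat_inv_mul (x : SLm) : mat x⁻¹ * mat x = 1 := by rw [← map_mul, inv_mul_cancel, map_one]

/-- The matrix is that of an element of the subgroup. -/
def InH (H : Subgroup (SpecialLinearGroup (Fin (m + 1)) F))
    (M : Matrix (Fin (m + 1)) (Fin (m + 1)) F) : Prop :=
  ∃ h ∈ H, mat h = M

variable {H : Subgroup (SpecialLinearGroup (Fin (m + 1)) F)}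

theorem InH.one : InH H 1 := ⟨1, H.one_mem, map_one _⟩

theorem InH.mul {M N : Mm} (hM : InH H M) (hN : InH H N) : InH H (M * N) := by
  obtain ⟨a, ha, rfl⟩ := hM
  obtain ⟨b, hb, rfl⟩ := hN
  exact ⟨a * b, H.mul_mem ha hb, map_mul _ _ _⟩

theorem InH.cancel_right {X Y Z : Mm} (hY : InH H Y) (hZ : InH H Z) (h : X * Y = Z) :
    InH H X := by
  obtain ⟨b, hb, rfl⟩ := hY
  obtain ⟨c, hc, rfl⟩ := hZ
  refine ⟨c * b⁻¹, H.mul_mem hc (H.inv_mem hb), ?_⟩
  rw [map_mul, ← h, mul_assoc, mat_mul_inv, mul_one]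

theorem InH.inv {M N : Mm} (hM : InH H M) (h : N * M = 1) : InH H N := hM.cancel_right InH.one h

/-- The Jordan block. -/
def jor (F : Type*) [Field F] (m : ℕ) : SpecialLinearGroup (Fin (m + 1)) F :=
  ⟨H58.jordanMat 1, H58.det_jordanMat 1⟩

/-- The corner entries of the powers of the Jordan block. -/
def gco (F : Type*) [Field F] (m : ℕ) (d : ℤ) : F :=
  mat (jor F m ^ d) 0 (Fin.last m)

/-- `u ^ i * E * u ^ (-j)`. -/
def rk1 (F : Type*) [Field F] (m : ℕ) (i j : ℤ) : Matrix (Fin (m + 1)) (Fin (m + 1)) F :=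
  mat (jor F m ^ i) * Matrix.single (Fin.last m) 0 1 * mat (jor F m ^ (-j))

theorem rk1_mul (i j k l : ℤ) : rk1 F m i j * rk1 F m k l = gco F m (k - j) • rk1 F m i l := by
  have e : ∀ A : Mm, Matrix.single (Fin.last m) 0 (1 : F) * A * Matrix.single (Fin.last m) 0 1 =
      A 0 (Fin.last m) • Matrix.single (Fin.last m) 0 1 := by
    intro A
    rw [Matrix.single_mul_mul_single, Matrix.smul_single, smul_eq_mul]
    simp
  simp only [rk1, gco]
  rw [show k - j = -j + k by ring, _root_.zpow_add, map_mul]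
  generalize mat (jor F m ^ i) = P
  generalize mat (jor F m ^ (-j)) = Q
  generalize mat (jor F m ^ k) = R
  generalize mat (jor F m ^ (-l)) = S
  rw [show P * Matrix.single (Fin.last m) 0 1 * Q * (R * Matrix.single (Fin.last m) 0 1 * S) =
      P * (Matrix.single (Fin.last m) 0 1 * (Q * R) * Matrix.single (Fin.last m) 0 1) * S by
    simp only [mul_assoc], e, Matrix.mul_smul, Matrix.smul_mul]

theorem rk1_shift (k i j : ℤ) :
    mat (jor F m ^ k) * rk1 F m i j * mat (jor F m ^ (-k)) =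
      rk1 F m (i + k) (j + k) := by
  simp only [rk1]
  rw [show i + k = k + i by ring, show -(j + k) = -j + -k by ring, _root_.zpow_add, _root_.zpow_add,
    map_mul, map_mul]
  simp only [mul_assoc]

theorem rk1_zero_right (i : ℤ) : rk1 F m i 0 =
    Matrix.vecMulVec (mat (jor F m ^ i) *ᵥ Pi.single (Fin.last m) 1) (Pi.single 0 1) := by
  simp only [rk1, neg_zero, zpow_zero, map_one, mul_one]
  rw [← Matrix.mul_vecMulVec]
  congr 1
  ext a b
  simp [Matrix.vecMulVec_apply, Matrix.single_apply, Pi.single_apply, eq_comm, ite_and]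
  split_ifs <;> rfl

theorem gco_natCast (k : ℕ) : gco F m k = (k.choose m : F) := by
  rw [gco, zpow_natCast, map_pow]
  show (H58.jordanMat (1 : F) ^ k) 0 (Fin.last m) = _
  rw [H58.jordanMat_pow_apply_last]
  simp [H58.supEntry]

theorem gco_of_lt {d : ℤ} (h0 : 0 ≤ d) (h : d < m) : gco F m d = 0 := by
  obtain ⟨k, rfl⟩ := Int.eq_ofNat_of_zero_le h0
  rw [gco_natCast, Nat.choose_eq_zero_of_lt (by omega)]
  simp

theorem gco_self : gco F m (m : ℤ) = 1 := by rw [gco_natCast, Nat.choose_self, Nat.cast_one]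

theorem gco_neg_one : gco F m (-1) = (-1) ^ m := by
  set w : Fin (m + 1) → F := fun i => (-1) ^ (m - (i : ℕ)) with hw
  have hJw : (H58.jordanMat (1 : F) : Mm) *ᵥ w = Pi.single (Fin.last m) 1 := by
    funext i
    rw [H58.jordanMat, Matrix.add_mulVec, Matrix.one_mulVec, Pi.add_apply]
    simp only [Matrix.mulVec, dotProduct, H58.supMat, Matrix.of_apply, H58.supEntry, ite_self,
      ite_mul, one_mul, zero_mul]
    by_cases hi : (i : ℕ) + 1 < m + 1
    · rw [Finset.sum_eq_single (⟨(i : ℕ) + 1, hi⟩ : Fin (m + 1))]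
      · have hne : i ≠ Fin.last m := fun e => by simp [e] at hi
        obtain ⟨d, hd⟩ : ∃ d, m - (i : ℕ) = d + 1 := ⟨m - i - 1, by omega⟩
        have hd' : m - ((i : ℕ) + 1) = d := by omega
        simp [hw, hd, hd', hne, pow_succ]
      · intro b _ hb
        exact if_neg fun h => hb (Fin.ext h)
      · simp
    · have hlast : i = Fin.last m := Fin.ext (by simp; omega)
      subst hlast
      rw [Finset.sum_eq_zero fun b _ => if_neg (by simp; omega)]
      simp [hw]
  have h := congrArg (fun x => mat (jor F m ^ (-1 : ℤ)) *ᵥ x) hJw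
  simp only [Matrix.mulVec_mulVec] at h
  have e : mat (jor F m ^ (-1 : ℤ)) * H58.jordanMat (1 : F) = 1 := by
    rw [_root_.zpow_neg_one]
    exact mat_inv_mul (jor F m)
  rw [e, Matrix.one_mulVec] at h
  have h0 := congrFun h 0
  rw [Matrix.mulVec_single_one, Matrix.col_apply] at h0
  rw [gco, ← h0]
  simp [hw]

theorem rk1_sq {i j : ℤ} (h0 : j ≤ i) (h : i - j < m) : rk1 F m i j * rk1 F m i j = 0 := by
  rw [rk1_mul, gco_of_lt (by omega) h, zero_smul]

theorem smul_rk1_mul (c d : F) (i j k l : ℤ) :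
    (c • rk1 F m i j) * (d • rk1 F m k l) = (c * d * gco F m (k - j)) • rk1 F m i l := by
  rw [Matrix.smul_mul, Matrix.mul_smul, rk1_mul, smul_smul, smul_smul, mul_assoc]

theorem smul_rk1_mul_zero (c d : F) {i j k l : ℤ} (h0 : j ≤ k) (h : k - j < m) :
    (c • rk1 F m i j) * (d • rk1 F m k l) = 0 := by
  rw [smul_rk1_mul, gco_of_lt (by omega) h, mul_zero, zero_smul]

/-- The corner transvection. -/
noncomputable def corner (hm : 1 ≤ m) (lam : F) : SpecialLinearGroup (Fin (m + 1)) F :=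
  SpecialLinearGroup.transvection (i := Fin.last m) (j := 0)
    (fun e => by have := congrArg Fin.val e; simp at this; omega) lam

theorem corner_coe (hm : 1 ≤ m) (lam : F) :
    mat (corner hm lam) = 1 + lam • rk1 F m 0 0 := by
  show Matrix.transvection _ _ _ = _
  simp [Matrix.transvection, rk1, Matrix.smul_single]

/-- The subgroup generated by `u` and `t u t⁻¹`. -/
noncomputable def gen (hm : 1 ≤ m) (lam : F) : Subgroup (SpecialLinearGroup (Fin (m + 1)) F) :=
  Subgroup.closure {jor F m, corner hm lam * jor F m * (corner hm lam)⁻¹}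

theorem jor_zpow_inH (hm : 1 ≤ m) (lam : F) (k : ℤ) :
    InH (gen hm lam) (mat (jor F m ^ k)) :=
  ⟨_, zpow_mem (Subgroup.subset_closure (Set.mem_insert _ _)) k, rfl⟩

theorem inH_shift (hm : 1 ≤ m) {lam : F} {c : F} {i j : ℤ}
    (h : InH (gen hm lam) (1 + c • rk1 F m i j)) (k : ℤ) :
    InH (gen hm lam) (1 + c • rk1 F m (i + k) (j + k)) := by
  have h1 := ((jor_zpow_inH hm lam k).mul h).mul (jor_zpow_inH hm lam (-k))
  rwa [mul_add, add_mul, mul_one, Matrix.mul_smul, Matrix.smul_mul, rk1_shift,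
    ← map_mul, ← _root_.zpow_add, add_neg_cancel, zpow_zero,
    map_one] at h1

theorem inH_neg (hm : 1 ≤ m) {lam : F} {c : F} {i j : ℤ} (h0 : j ≤ i) (hij : i - j < m)
    (h : InH (gen hm lam) (1 + c • rk1 F m i j)) :
    InH (gen hm lam) (1 + (-c) • rk1 F m i j) :=
  h.inv (by
    rw [mul_add, mul_one, add_mul, one_mul, smul_rk1_mul_zero _ _ h0 hij, add_zero,
      neg_smul, neg_add_cancel_right])

theorem inH_add (hm : 1 ≤ m) {lam : F} {c d : F} {i j : ℤ} (h0 : j ≤ i) (hij : i - j < m)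
    (h : InH (gen hm lam) (1 + c • rk1 F m i j)) (h' : InH (gen hm lam) (1 + d • rk1 F m i j)) :
    InH (gen hm lam) (1 + (c + d) • rk1 F m i j) := by
  have := h.mul h'
  rwa [mul_add, mul_one, add_mul, one_mul, smul_rk1_mul_zero _ _ h0 hij, add_zero, add_assoc,
    ← add_smul] at this

/-- The elements `t_k t_{k+1}⁻¹`. -/
theorem inH_step (hm : 3 ≤ m) (lam : F) (k : ℤ) :
    InH (gen (show 1 ≤ m by omega) lam)
      (1 + lam • rk1 F m k k - lam • rk1 F m (k + 1) (k + 1)) := by
  have hm1 : 1 ≤ m := by omega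
  set u := jor F m with hu
  set t := corner hm1 lam with ht
  have hmem : u ^ k * (t * u * t⁻¹) * u ^ (-(k + 1)) ∈ gen hm1 lam := by
    refine mul_mem (mul_mem (zpow_mem (Subgroup.subset_closure (Set.mem_insert _ _)) _) ?_)
      (zpow_mem (Subgroup.subset_closure (Set.mem_insert _ _)) _)
    exact Subgroup.subset_closure (Set.mem_insert_of_mem _ rfl)
  refine ⟨_, hmem, ?_⟩
  have e : u ^ k * (t * u * t⁻¹) * u ^ (-(k + 1)) =
      (u ^ k * t * u ^ (-k)) * (u ^ (k + 1) * t⁻¹ * u ^ (-(k + 1))) := by group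
  have htinv : mat t⁻¹ = 1 + (-lam) • rk1 F m 0 0 := by
    have h1 : t⁻¹ = corner hm1 (-lam) := SpecialLinearGroup.transvection_inv _ _
    rw [h1, corner_coe]
  have hconj : ∀ (c : F) (l : ℤ) (x : SLm), mat x = 1 + c • rk1 F m 0 0 →
      mat (u ^ l * x * u ^ (-l)) = 1 + c • rk1 F m l l := by
    intro c l x hx
    rw [map_mul, map_mul, hx, mul_add, add_mul, mul_one,
      ← map_mul, ← _root_.zpow_add, add_neg_cancel, zpow_zero,
      map_one, Matrix.mul_smul, Matrix.smul_mul, hu, rk1_shift, zero_add]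
  rw [e, map_mul, hconj lam k t (corner_coe hm1 lam),
    hconj (-lam) (k + 1) t⁻¹ htinv, mul_add, mul_one, add_mul, one_mul,
    smul_rk1_mul_zero _ _ (by omega) (by omega), add_zero, neg_smul, ← sub_eq_add_neg]

/-- The first transvection. -/
theorem inH_first (hm : 3 ≤ m) (lam : F) :
    InH (gen (show 1 ≤ m by omega) lam) (1 + (-lam ^ 3) • rk1 F m 2 0) := by
  set A : Mm := lam • rk1 F m 0 0 with hA
  set B : Mm := lam • rk1 F m 1 1 with hB
  set C : Mm := lam • rk1 F m 2 2 with hC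
  have z : ∀ (i j : ℤ), i ≤ j → j - i < m → (lam • rk1 F m i i) * (lam • rk1 F m j j) = 0 :=
    fun i j h h' => smul_rk1_mul_zero _ _ h h'
  have hAA : A * A = 0 := z 0 0 le_rfl (by omega)
  have hAB : A * B = 0 := z 0 1 (by omega) (by omega)
  have hAC : A * C = 0 := z 0 2 (by omega) (by omega)
  have hBB : B * B = 0 := z 1 1 le_rfl (by omega)
  have hBC : B * C = 0 := z 1 2 (by omega) (by omega)
  have hCC : C * C = 0 := z 2 2 le_rfl (by omega)
  have hs0 : InH (gen (show 1 ≤ m by omega) lam) (1 + A - B) := by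
    simpa [hA, hB] using inH_step hm lam 0
  have hs1 : InH (gen (show 1 ≤ m by omega) lam) (1 + B - C) := by
    simpa [hB, hC] using inH_step hm lam 1
  have hZ : InH (gen (show 1 ≤ m by omega) lam) (1 - B * A + C * A - C * B + C * B * A) :=
    (hs1.mul hs0).cancel_right (hs0.mul hs1) (ring_comm_one hAA hAB hAC hBB hBC hCC)
  have hT : InH (gen (show 1 ≤ m by omega) lam) (1 - C * B * A) :=
    (hs0.mul hZ).cancel_right (hZ.mul hs0) (ring_comm_two hAA hAB hAC hBB hBC)
  have e : C * B * A = lam ^ 3 • rk1 F m 2 0 := by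
    rw [hA, hB, hC, smul_rk1_mul, smul_rk1_mul]
    norm_num
    rw [gco_neg_one]
    congr 1
    have h1 : ((-1 : F) ^ m) ^ 2 = 1 := by rw [← pow_mul, mul_comm, pow_mul, neg_one_sq, one_pow]
    linear_combination lam ^ 3 * h1
  rwa [e, sub_eq_add_neg, ← neg_smul] at hT

/-- Moving a transvection one step away from the diagonal. -/
theorem inH_up (hm : 3 ≤ m) {lam c : F} {D : ℕ} (hD : D + 1 < m)
    (h : InH (gen (show 1 ≤ m by omega) lam) (1 + c • rk1 F m D 0)) :
    InH (gen (show 1 ≤ m by omega) lam)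
      (1 + (-(lam * (-1) ^ m * c)) • rk1 F m (D + 1 : ℤ) 0) := by
  set X : Mm := lam • rk1 F m D D - lam • rk1 F m (D + 1 : ℤ) (D + 1) with hX
  set c' : F := -(lam * (-1) ^ m * c) with hc'
  have hs : InH (gen (show 1 ≤ m by omega) lam) (1 + X) := by
    rw [hX, ← add_sub_assoc]; exact inH_step hm lam D
  have hXE : X * (c • rk1 F m D 0) = c' • rk1 F m (D + 1 : ℤ) 0 := by
    rw [hX, sub_mul, smul_rk1_mul_zero _ _ le_rfl (by omega), zero_sub, smul_rk1_mul,
      show (D : ℤ) - (D + 1) = -1 by ring, gco_neg_one, ← neg_smul, hc']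
    congr 1
    ring
  have hEX : ∀ (d : F) (i : ℤ), (d • rk1 F m i 0) * X = 0 := by
    intro d i
    rw [hX, mul_sub, smul_rk1_mul_zero _ _ (by omega) (by omega),
      smul_rk1_mul_zero _ _ (by omega) (by omega), sub_zero]
  have heq : (1 + c' • rk1 F m (D + 1 : ℤ) 0 + c • rk1 F m D 0) * (1 + X) =
      (1 + X) * (1 + c • rk1 F m D 0) := by
    simp only [add_mul, mul_add, one_mul, mul_one, hXE, hEX, add_zero]
    abel
  have h1 : InH (gen (show 1 ≤ m by omega) lam)
      (1 + c' • rk1 F m (D + 1 : ℤ) 0 + c • rk1 F m D 0) :=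
    hs.cancel_right (hs.mul h) heq
  have h2 := h1.mul (inH_neg (show 1 ≤ m by omega) (by omega) (by omega) h)
  have e : ∀ U W W' : Mm, U * W' = 0 → W * W' = 0 → W + W' = 0 →
      (1 + U + W) * (1 + W') = 1 + U := by
    intro U W W' hUW hWW hsum
    rw [mul_add, mul_one, add_mul, add_mul, one_mul, hUW, hWW, add_zero, add_zero, add_assoc _ W,
      hsum, add_zero]
  rwa [e _ _ _ (smul_rk1_mul_zero _ _ (by omega) (by omega))
    (smul_rk1_mul_zero _ _ (by omega) (by omega)) (by rw [← add_smul, add_neg_cancel, zero_smul])]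
    at h2

/-- The commutator of two transvections. -/
theorem inH_pair (hm : 1 ≤ m) {lam c₁ c₂ : F} {D₁ D₂ D₃ d : ℕ} (h₁ : D₁ < m) (h₂ : D₂ < m)
    (h₃ : D₃ < m) (hd : D₁ + D₂ = D₃ + d)
    (hc₁ : InH (gen hm lam) (1 + c₁ • rk1 F m D₁ 0))
    (hc₂ : InH (gen hm lam) (1 + c₂ • rk1 F m D₂ 0)) :
    InH (gen hm lam) (1 + (c₁ * c₂ * gco F m d) • rk1 F m D₃ 0) := by
  have hB : InH (gen hm lam) (1 + c₂ • rk1 F m (d : ℤ) ((d : ℤ) - D₂)) := by
    have := inH_shift hm hc₂ ((d : ℤ) - D₂)
    rwa [zero_add, show (D₂ : ℤ) + ((d : ℤ) - D₂) = d by ring] at this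
  have hA' := inH_neg hm (by omega) (by omega) hc₁
  have hB' := inH_neg hm (by omega) (by omega) hB
  have h := (hc₁.mul hB).mul (hA'.mul hB')
  simp only [neg_smul, ← sub_eq_add_neg] at h
  rw [ring_comm_pair (smul_rk1_mul_zero _ _ (by omega) (by omega))
    (smul_rk1_mul_zero _ _ (by omega) (by omega))
    (smul_rk1_mul_zero _ _ (by omega) (by omega)), smul_rk1_mul, sub_zero] at h
  have h' := inH_shift hm h ((D₂ : ℤ) - d)
  rwa [show (D₁ : ℤ) + ((D₂ : ℤ) - d) = D₃ by omega,
    show (d : ℤ) - D₂ + ((D₂ : ℤ) - d) = 0 by ring] at h'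

end Cfsg.Agent.H9.SLTwo
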