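import Cfsg.Agent.H9.SLTwo.Basic

/-!
`SL` of dimension at least four over a finite field is generated by a regular unipotent and a
conjugate of it.
-/

set_option autoImplicit false

namespace Cfsg.Agent.H9.SLTwo

open Matrix

theorem choose_ne_zero_mod {p : ℕ} [hp : Fact p.Prime] {k : ℕ} (hk : ¬ p ∣ k) :
    ∀ e : ℕ, ¬ p ∣ (p ^ e * k + (p ^ e - 1)).choose (p ^ e)
  | 0 => by simpa using hk
  | e + 1 => by
    intro h
    refine choose_ne_zero_mod hk e ?_
    have hpos := hp.out.pos
    have h1 : 1 ≤ p ^ e := Nat.one_le_pow _ _ hpos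
    have hsplit : p ^ (e + 1) * k + (p ^ (e + 1) - 1) =
        (p - 1) + p * (p ^ e * k + (p ^ e - 1)) := by
      have : p * (p ^ e - 1) = p ^ (e + 1) - p := by rw [Nat.mul_sub, mul_one, pow_succ']
      rw [mul_add, this, pow_succ', mul_assoc]
      have : p ≤ p * p ^ e := Nat.le_mul_of_pos_right _ (by omega)
      omega
    have hc := Choose.choose_modEq_choose_mod_mul_choose_div_nat (p := p)
      (n := p ^ (e + 1) * k + (p ^ (e + 1) - 1)) (k := p ^ (e + 1))
    rw [show p ^ (e + 1) % p = 0 by rw [pow_succ']; exact Nat.mul_mod_right _ _,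
      show p ^ (e + 1) / p = p ^ e by rw [pow_succ']; exact Nat.mul_div_cancel_left _ hpos,
      show (p ^ (e + 1) * k + (p ^ (e + 1) - 1)) / p = p ^ e * k + (p ^ e - 1) by
        rw [hsplit, Nat.add_mul_div_left _ _ hpos, Nat.div_eq_of_lt (Nat.sub_lt hpos one_pos),
          zero_add], Nat.choose_zero_right, one_mul] at hc
    rw [← Nat.modEq_zero_iff_dvd] at h ⊢
    exact hc.symm.trans h

variable {F : Type*} [Field F] {m : ℕ} (hm : 3 ≤ m) (lam : F)

/-- The generated subgroup. -/
noncomputable abbrev hgrp : Subgroup (SpecialLinearGroup (Fin (m + 1)) F) :=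
  gen (m := m) (show 1 ≤ m by omega) lam

/-- The normalised coefficient `c` occurs at gap `D`. -/
def Good (D : ℕ) (c : F) : Prop :=
  InH (hgrp hm lam) (1 + (lam ^ (D + 1) * c) • rk1 F m D 0)

variable {hm lam}

theorem Good.zero (D : ℕ) : Good hm lam D 0 := by
  rw [Good, mul_zero, zero_smul, add_zero]; exact InH.one

theorem Good.neg {D : ℕ} (hD : D < m) {c : F} (h : Good hm lam D c) : Good hm lam D (-c) := by
  rw [Good, mul_neg]; exact inH_neg (show 1 ≤ m by omega) (by omega) (by omega) h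

theorem Good.add {D : ℕ} (hD : D < m) {c d : F} (h : Good hm lam D c) (h' : Good hm lam D d) :
    Good hm lam D (c + d) := by
  rw [Good, mul_add]; exact inH_add (show 1 ≤ m by omega) (by omega) (by omega) h h'

theorem Good.natMul {D : ℕ} (hD : D < m) {c : F} (h : Good hm lam D c) :
    ∀ N : ℕ, Good hm lam D ((N : F) * c)
  | 0 => by rw [Nat.cast_zero, zero_mul]; exact Good.zero D
  | N + 1 => by rw [Nat.cast_succ, add_mul, one_mul]; exact (h.natMul hD N).add hD h

theorem Good.up {D : ℕ} (hD : D + 1 < m) {c : F} (h : Good hm lam D c) :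
    Good hm lam (D + 1) c := by
  have h1 := inH_up hm hD h
  have h2 : Good hm lam (D + 1) (-((-1) ^ m * c)) := by
    rw [Good]
    push_cast
    convert h1 using 3
    ring
  rcases neg_one_pow_eq_or F m with he | he
  · rw [he, one_mul] at h2; simpa using h2.neg hD
  · rw [he, neg_one_mul, neg_neg] at h2; exact h2

theorem Good.le {D D' : ℕ} (hle : D ≤ D') (hD : D' < m) {c : F} (h : Good hm lam D c) :
    Good hm lam D' c := by
  induction hle with
  | refl => exact h
  | step _ ih => exact (ih (by omega)).up hD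

theorem Good.pair {D₁ D₂ D₃ d : ℕ} (h₁ : D₁ < m) (h₂ : D₂ < m) (h₃ : D₃ < m)
    (hd : D₁ + D₂ = D₃ + d) {a b : F} (ha : Good hm lam D₁ a) (hb : Good hm lam D₂ b) :
    Good hm lam D₃ (a * b * gco F m d * lam ^ (d + 1)) := by
  have h := inH_pair (show 1 ≤ m by omega) h₁ h₂ h₃ hd ha hb
  rw [Good]
  convert h using 3
  have e : lam ^ (D₃ + 1) * lam ^ (d + 1) = lam ^ (D₁ + 1) * lam ^ (D₂ + 1) := by
    rw [← pow_add, ← pow_add]; congr 1; omega
  linear_combination (a * b * gco F m d) * e

theorem good_one : Good hm lam (m - 1) 1 := by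
  have h : Good hm lam 2 (-1) := by
    rw [Good]
    push_cast
    convert inH_first hm lam using 3
    ring
  simpa using ((h.neg (by omega)).le (D' := m - 1) (by omega) (by omega))

theorem Good.down {D : ℕ} (hD : D + 1 < m) {b : F} (hb : Good hm lam (D + 1) b) :
    Good hm lam D (b * lam ^ (m + 1)) := by
  have h := (good_one (hm := hm) (lam := lam)).pair (D₃ := D) (d := m) (by omega) hD (by omega)
    (by omega) hb
  rwa [gco_self, one_mul, mul_one] at h

variable [Fintype F]

/-- When `lam` generates the multiplicative group every coefficient occurs at the largest gap. -/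
theorem good_all (hlam : lam ≠ 0) (hgen : ∀ x : F, x ≠ 0 → ∃ k : ℕ, lam ^ k = x) (c : F) :
    Good hm lam (m - 1) c := by
  obtain ⟨p, hchar⟩ := CharP.exists F
  haveI := hchar
  haveI : Fact p.Prime := ⟨CharP.char_is_prime F p⟩
  have hp : p.Prime := Fact.out
  obtain ⟨e, k, hk, hn⟩ := Nat.exists_eq_pow_mul_and_not_dvd (n := m + 1) (by omega) p hp.ne_one
  set P := p ^ e with hP
  set S : Set F := {μ | ∀ b, Good hm lam (m - 1) b → Good hm lam (m - 1) (μ * b)} with hS
  have hSmul : ∀ {x y}, x ∈ S → y ∈ S → x * y ∈ S := fun hx hy b hb => by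
    rw [mul_assoc]; exact hx _ (hy _ hb)
  have hS1 : (1 : F) ∈ S := fun b hb => by rwa [one_mul]
  have hSpow : ∀ {x}, x ∈ S → ∀ j : ℕ, x ^ j ∈ S := by
    intro x hx j
    induction j with
    | zero => rwa [pow_zero]
    | succ j ih => rw [pow_succ]; exact hSmul ih hx
  have hN : lam ^ (m + 1) ∈ S := fun b hb => by
    have hb' : Good hm lam (m - 2 + 1) b := by rwa [show m - 2 + 1 = m - 1 by omega]
    have h := (hb'.down (by omega)).le (D' := m - 1) (by omega) (by omega)
    rwa [mul_comm] at h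
  have hμ : lam ^ P ∈ S := by
    rcases Nat.lt_or_ge k 2 with hk2 | hk2
    · have hk1 : k = 1 := by
        rcases Nat.eq_zero_or_pos k with rfl | h
        · exact absurd (dvd_zero p) hk
        · omega
      rw [show P = m + 1 by rw [hn, hk1, mul_one]]
      exact hN
    · have hPm : P + 2 ≤ m := by
        rcases Nat.lt_or_ge k 3 with h3 | h3
        · obtain rfl : k = 2 := by omega
          have hodd : Odd P := by
            rw [hP]
            refine (hp.odd_of_ne_two ?_).pow
            rintro rfl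
            exact hk dvd_rfl
          obtain ⟨j, hj⟩ := hodd
          omega
        · have : P * 3 ≤ P * k := Nat.mul_le_mul_left _ h3
          omega
      have hNP : lam ^ (m + P + 1) ∈ S := by
        intro b hb
        have h := ((good_one (hm := hm) (lam := lam)).pair (D₃ := m - 2 - P) (d := m + P)
          (by omega) (by omega) (by omega) (by omega) hb).le (D' := m - 1) (by omega) (by omega)
        rw [gco_natCast, one_mul] at h
        have hne : ¬ p ∣ (m + P).choose m := by
          rw [Nat.choose_symm_add]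
          have := choose_ne_zero_mod (p := p) hk e
          rwa [← hP, show P * k + (P - 1) = m + P by
            have : 1 ≤ P := Nat.one_le_pow _ _ hp.pos
            omega] at this
        obtain ⟨M, hM⟩ : ∃ M : ℕ, (M : F) * ((m + P).choose m : F) = 1 := by
          have h0 : (((m + P).choose m : ℕ) : ZMod p) ≠ 0 := by
            rwa [Ne, ZMod.natCast_eq_zero_iff]
          refine ⟨(((m + P).choose m : ℕ) : ZMod p)⁻¹.val, ?_⟩
          have h1 := congrArg (ZMod.castHom dvd_rfl F) (inv_mul_cancel₀ h0)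
          rw [map_mul, map_one, map_natCast, ZMod.castHom_apply, ← ZMod.natCast_val] at h1
          exact h1
        have h2 := h.natMul (by omega) M
        convert h2 using 1
        linear_combination -(b * lam ^ (m + P + 1)) * hM
      have hq : lam ^ (Fintype.card F - 1) = 1 := FiniteField.pow_card_sub_one_eq_one lam hlam
      have hinv : (lam ^ (m + 1)) ^ (Fintype.card F - 1 - 1) * lam ^ (m + 1) = 1 := by
        rw [← pow_succ, show Fintype.card F - 1 - 1 + 1 = Fintype.card F - 1 by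
          have := Fintype.one_lt_card (α := F); omega, ← pow_mul, mul_comm, pow_mul, hq, one_pow]
      have e' : lam ^ P = (lam ^ (m + 1)) ^ (Fintype.card F - 1 - 1) * lam ^ (m + P + 1) := by
        rw [show lam ^ (m + P + 1) = lam ^ (m + 1) * lam ^ P by rw [← pow_add]; congr 1; omega,
          ← mul_assoc, hinv, one_mul]
      rw [e']
      exact hSmul (hSpow hN _) hNP
  rcases eq_or_ne c 0 with rfl | hc
  · exact Good.zero _
  obtain ⟨y, hy⟩ : ∃ y, y ^ P = c := by
    obtain ⟨y, hy⟩ := (bijective_iterateFrobenius (R := F) (p := p) (n := e)).2 c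
    exact ⟨y, by rwa [iterateFrobenius_def] at hy⟩
  have hy0 : y ≠ 0 := fun h => hc (by
    rw [← hy, h, zero_pow (pow_ne_zero _ hp.ne_zero)])
  obtain ⟨j, hj⟩ := hgen y hy0
  have h := hSpow hμ j 1 good_one
  rwa [mul_one, ← pow_mul, mul_comm, pow_mul, hj, hy] at h

theorem good_all_gap (hlam : lam ≠ 0) (hgen : ∀ x : F, x ≠ 0 → ∃ k : ℕ, lam ^ k = x) :
    ∀ (j D : ℕ), D + j = m - 1 → ∀ c : F, Good hm lam D c := by
  intro j
  induction j with
  | zero => intro D hD c; rw [show D = m - 1 by omega]; exact good_all hlam hgen c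
  | succ j ih =>
    intro D hD c
    have := (ih (D + 1) (by omega) (c / lam ^ (m + 1))).down (by omega)
    rwa [div_mul_cancel₀ _ (pow_ne_zero _ hlam)] at this

omit [Fintype F] in
theorem cyclic_zero_row (z : Fin (m + 1) → F) :
    (H58.cyclicMat (1 : F) *ᵥ z) 0 = z (Fin.last m) := by
  simp only [Matrix.mulVec, dotProduct, H58.cyclicMat, Matrix.of_apply, H58.jordanMat_pow_apply_last]
  rw [Finset.sum_eq_single (Fin.last m)]
  · simp [H58.supEntry]
  · intro b _ hb
    have : (b : ℕ) < m := lt_of_le_of_ne (by omega) fun h => hb (Fin.ext h)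
    simp [H58.supEntry, Nat.choose_eq_zero_of_lt this]
  · simp

/-- All transvections with axis the first coordinate. -/
theorem inH_axis (hlam : lam ≠ 0) (hgen : ∀ x : F, x ≠ 0 → ∃ k : ℕ, lam ^ k = x)
    (y : Fin (m + 1) → F) (hy : y 0 = 0) :
    InH (hgrp hm lam) (1 + Matrix.vecMulVec y (Pi.single 0 1)) := by
  classical
  have hunit : IsUnit (H58.cyclicMat (m := m) (1 : F)).det :=
    isUnit_iff_ne_zero.mpr H58.det_cyclicMat_one_ne_zero
  obtain ⟨z, rfl⟩ : ∃ z, H58.cyclicMat (1 : F) *ᵥ z = y :=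
    ⟨(H58.cyclicMat (1 : F))⁻¹ *ᵥ y, by
      rw [Matrix.mulVec_mulVec, Matrix.mul_nonsing_inv _ hunit, Matrix.one_mulVec]⟩
  rw [cyclic_zero_row] at hy
  have hadd : ∀ v v' : Fin (m + 1) → F, v 0 = 0 → v' 0 = 0 →
      InH (hgrp hm lam) (1 + Matrix.vecMulVec v (Pi.single 0 1)) →
      InH (hgrp hm lam) (1 + Matrix.vecMulVec v' (Pi.single 0 1)) →
      InH (hgrp hm lam) (1 + Matrix.vecMulVec (v + v') (Pi.single 0 1)) := by
    intro v v' _ hv' h h'
    have := h.mul h'
    rwa [mul_add, mul_one, add_mul, one_mul, Matrix.vecMulVec_mul_vecMulVec, single_dotProduct,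
      hv', mul_zero, zero_smul, Matrix.vecMulVec_zero, add_zero, add_assoc,
      ← Matrix.add_vecMulVec] at this
  have hsum : H58.cyclicMat (1 : F) *ᵥ z =
      ∑ b : Fin (m + 1), z b • (H58.cyclicMat (1 : F)).col b := by
    funext a
    simp [Matrix.mulVec, dotProduct, mul_comm]
  rw [hsum]
  refine (Finset.sum_induction (fun b => z b • (H58.cyclicMat (1 : F)).col b)
    (fun v => v 0 = 0 ∧ InH (hgrp hm lam) (1 + Matrix.vecMulVec v (Pi.single 0 1)))
    (fun v v' h h' => ⟨by simp [h.1, h'.1], hadd v v' h.1 h'.1 h.2 h'.2⟩)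
    ⟨rfl, by rw [Matrix.zero_vecMulVec, add_zero]; exact InH.one⟩ fun b _ => ?_).2
  by_cases hb : b = Fin.last m
  · subst hb
    rw [hy, zero_smul]
    exact ⟨rfl, by rw [Matrix.zero_vecMulVec, add_zero]; exact InH.one⟩
  have hbm : (b : ℕ) < m := lt_of_le_of_ne (by omega) fun h => hb (Fin.ext h)
  refine ⟨?_, ?_⟩
  · simp [H58.cyclicMat, H58.jordanMat_pow_apply_last, Nat.choose_eq_zero_of_lt hbm]
  · have h := good_all_gap (hm := hm) hlam hgen (m - 1 - b) b (by omega)
      (z b / lam ^ ((b : ℕ) + 1))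
    rw [Good, mul_div_cancel₀ _ (pow_ne_zero _ hlam), rk1_zero_right, zpow_natCast,
      ← Matrix.smul_vecMulVec] at h
    convert h using 4
    rw [Matrix.mulVec_single_one, map_pow]
    rfl

/-- The rows `φ₀ ∘ u ^ (-j)`. -/
def axes (F : Type*) [Field F] (m : ℕ) : Matrix (Fin (m + 1)) (Fin (m + 1)) F :=
  Matrix.of fun j k => mat (jor F m ^ (-((j : ℕ) : ℤ))) 0 k

omit [Fintype F] in
theorem det_axes_ne_zero : (axes F m).det ≠ 0 := by
  set Q : Matrix (Fin (m + 1)) (Fin (m + 1)) F :=
    Matrix.of fun k l => mat (jor F m ^ ((m + (l : ℕ) : ℕ) : ℤ)) k (Fin.last m) with hQ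
  have hRQ : ∀ j l : Fin (m + 1), (axes F m * Q) j l =
      gco F m (-((j : ℕ) : ℤ) + (m + (l : ℕ) : ℕ)) := by
    intro j l
    rw [gco, _root_.zpow_add, map_mul]
    simp only [Matrix.mul_apply, axes, hQ, Matrix.of_apply]
  have h1 : (axes F m * Q).det = 1 := by
    rw [Matrix.det_of_isUpperTriangular]
    · refine Finset.prod_eq_one fun j _ => ?_
      rw [hRQ]
      push_cast
      rw [show -((j : ℕ) : ℤ) + ((m : ℤ) + (j : ℕ)) = m by ring, gco_self]
    · intro j l hlj
      have : (l : ℕ) < j := hlj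
      rw [hRQ]
      exact gco_of_lt (by omega) (by omega)
  intro h
  rw [Matrix.det_mul, h, zero_mul] at h1
  exact zero_ne_one h1

/-- Conjugation by a matrix with non-zero determinant. -/
noncomputable def conjHom (R : Matrix (Fin (m + 1)) (Fin (m + 1)) F) (hR : IsUnit R.det) :
    SpecialLinearGroup (Fin (m + 1)) F →* SpecialLinearGroup (Fin (m + 1)) F where
  toFun A := ⟨R * mat A * R⁻¹, by
    rw [Matrix.det_conj ((Matrix.isUnit_iff_isUnit_det R).mpr hR)]; exact A.2⟩
  map_one' := Subtype.ext (by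
    show R * mat (1 : SpecialLinearGroup (Fin (m + 1)) F) * R⁻¹ = 1
    rw [map_one, mul_one, Matrix.mul_nonsing_inv R hR])
  map_mul' A B := Subtype.ext (by
    show R * mat (A * B) * R⁻¹ = R * mat A * R⁻¹ * (R * mat B * R⁻¹)
    rw [map_mul, show R * mat A * R⁻¹ * (R * mat B * R⁻¹) =
      R * mat A * (R⁻¹ * R) * (mat B * R⁻¹) by simp only [mul_assoc], Matrix.nonsing_inv_mul R hR,
      mul_one, mul_assoc, mul_assoc, mul_assoc])

omit [Fintype F] in
theorem conjHom_injective (R : Matrix (Fin (m + 1)) (Fin (m + 1)) F) (hR : IsUnit R.det) :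
    Function.Injective (conjHom R hR) := by
  intro A B h
  refine Subtype.ext ?_
  have h' : R * mat A * R⁻¹ = R * mat B * R⁻¹ := congrArg Subtype.val h
  have := congrArg (fun X => R⁻¹ * X * R) h'
  simp only [← mul_assoc, Matrix.nonsing_inv_mul R hR, one_mul] at this
  simp only [mul_assoc, Matrix.nonsing_inv_mul R hR, mul_one] at this
  exact this

/-- The two regular unipotents generate. -/
theorem gen_eq_top (hlam : lam ≠ 0) (hgen : ∀ x : F, x ≠ 0 → ∃ k : ℕ, lam ^ k = x) :
    hgrp hm lam = ⊤ := by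
  classical
  haveI : Nontrivial (Fin (m + 1)) := Fin.nontrivial_iff_two_le.mpr (by omega)
  set R := axes F m with hR
  have hu : IsUnit R.det := isUnit_iff_ne_zero.mpr det_axes_ne_zero
  have htop : (Subgroup.map (conjHom R hu) (hgrp hm lam)) = ⊤ := by
    refine H70.eq_top_of_transvection_mem _ fun i j hij c => ?_
    set v : Fin (m + 1) → F := c • R⁻¹.col i with hv
    set J := mat (jor F m ^ (-((j : ℕ) : ℤ))) with hJ
    set y := J *ᵥ v with hy
    have hrow : ∀ k, J 0 k = R j k := fun k => rfl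
    have hy0 : y 0 = 0 := by
      have : (R * R⁻¹) j i = 0 := by
        rw [Matrix.mul_nonsing_inv R hu, Matrix.one_apply_ne (Ne.symm hij)]
      rw [hy, hv, Matrix.mulVec_smul, Pi.smul_apply, smul_eq_mul]
      rw [Matrix.mul_apply] at this
      simp only [Matrix.mulVec, dotProduct, Matrix.col_apply, hrow]
      rw [this, mul_zero]
    have h1 := ((jor_zpow_inH (show 1 ≤ m by omega) lam (j : ℕ)).mul
      (inH_axis (hm := hm) hlam hgen y hy0)).mul (jor_zpow_inH (show 1 ≤ m by omega) lam (-((j : ℕ) : ℤ)))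
    rw [mul_add, add_mul, mul_one, ← map_mul, ← _root_.zpow_add, add_neg_cancel, zpow_zero,
      map_one, Matrix.mul_vecMulVec, Matrix.vecMulVec_mul, hy, ← hJ, Matrix.mulVec_mulVec,
      hJ, ← map_mul, ← _root_.zpow_add, add_neg_cancel, zpow_zero, map_one, Matrix.one_mulVec]
      at h1
    obtain ⟨h, hh, he⟩ := h1
    refine ⟨h, hh, Subtype.ext ?_⟩
    show R * mat h * R⁻¹ = Matrix.transvection i j c
    rw [he, mul_add, add_mul, mul_one, Matrix.mul_nonsing_inv R hu, Matrix.mul_vecMulVec,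
      Matrix.vecMulVec_mul, hv, Matrix.mulVec_smul]
    have e1 : R *ᵥ R⁻¹.col i = Pi.single i 1 := by
      rw [← Matrix.mulVec_single_one, Matrix.mulVec_mulVec, Matrix.mul_nonsing_inv R hu,
        Matrix.one_mulVec]
    have e2 : (Pi.single (0 : Fin (m + 1)) (1 : F) ᵥ* mat (jor F m ^ (-((j : ℕ) : ℤ)))) ᵥ* R⁻¹ =
        Pi.single j 1 := by
      have : Pi.single (0 : Fin (m + 1)) (1 : F) ᵥ* mat (jor F m ^ (-((j : ℕ) : ℤ))) =
          Pi.single j 1 ᵥ* R := by
        funext k
        simp [Matrix.single_vecMul, hR, axes]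
      rw [this, Matrix.vecMul_vecMul, Matrix.mul_nonsing_inv R hu, Matrix.vecMul_one]
    rw [e1, e2, Matrix.transvection]
    congr 1
    ext a b
    simp [Matrix.vecMulVec_apply, Matrix.single_apply, Pi.single_apply, eq_comm, ite_and]
    split_ifs <;> rfl
  rw [eq_top_iff]
  intro A _
  have h1 : conjHom R hu A ∈ Subgroup.map (conjHom R hu) (hgrp hm lam) := htop ▸ Subgroup.mem_top _
  obtain ⟨B, hB, hBA⟩ := h1
  rwa [← conjHom_injective R hu hBA]

/-- Two conjugate regular unipotents generating `SL`. -/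
theorem sl_two_regular_unipotents {F : Type*} [Field F] [Fintype F] {m : ℕ} (hm : 3 ≤ m) :
    ∃ u g : SpecialLinearGroup (Fin (m + 1)) F,
      (IsNilpotent ((u : Matrix (Fin (m + 1)) (Fin (m + 1)) F) - 1) ∧
        ((u : Matrix (Fin (m + 1)) (Fin (m + 1)) F) - 1) ^ m ≠ 0) ∧
      (IsNilpotent (((g * u * g⁻¹ : SpecialLinearGroup (Fin (m + 1)) F) :
          Matrix (Fin (m + 1)) (Fin (m + 1)) F) - 1) ∧
        (((g * u * g⁻¹ : SpecialLinearGroup (Fin (m + 1)) F) :
          Matrix (Fin (m + 1)) (Fin (m + 1)) F) - 1) ^ m ≠ 0) ∧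
      Subgroup.closure ({u, g * u * g⁻¹} : Set (SpecialLinearGroup (Fin (m + 1)) F)) = ⊤ := by
  classical
  obtain ⟨w, hw⟩ := IsCyclic.exists_generator (α := Fˣ)
  have hgen : ∀ x : F, x ≠ 0 → ∃ k : ℕ, (w : F) ^ k = x := by
    intro x hx
    obtain ⟨k, hk⟩ := mem_powers_iff_mem_zpowers.mpr (hw (Units.mk0 x hx))
    exact ⟨k, congrArg Units.val hk⟩
  set t := corner (show 1 ≤ m by omega) (w : F) with ht
  have hN : IsNilpotent ((jor F m : Matrix (Fin (m + 1)) (Fin (m + 1)) F) - 1) ∧
      ((jor F m : Matrix (Fin (m + 1)) (Fin (m + 1)) F) - 1) ^ m ≠ 0 := by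
    have e : (jor F m : Matrix (Fin (m + 1)) (Fin (m + 1)) F) - 1 = H58.supMat (1 : F) :=
      add_sub_cancel_left 1 _
    rw [e]
    refine ⟨⟨m + 1, ?_⟩, fun h => ?_⟩
    · ext a b
      rw [H58.supMat_pow_apply, if_neg (by omega)]
      rfl
    · have := congrFun (congrFun h 0) (Fin.last m)
      rw [H58.supMat_pow_apply] at this
      simp [H58.supEntry] at this
  refine ⟨jor F m, t, hN, ?_, gen_eq_top (hm := hm) (Units.ne_zero w) hgen⟩
  have hconj : ∀ k : ℕ, ((mat (t * jor F m * t⁻¹)) - 1) ^ k =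
      mat t * ((mat (jor F m)) - 1) ^ k * mat t⁻¹ := by
    intro k
    induction k with
    | zero => simp [mat_mul_inv]
    | succ k ih =>
      rw [pow_succ, ih, pow_succ, map_mul, map_mul, mul_sub, mul_one,
        show mat t * (mat (jor F m) - 1) ^ k * mat t⁻¹ * (mat t * mat (jor F m) * mat t⁻¹) =
          mat t * (mat (jor F m) - 1) ^ k * (mat t⁻¹ * mat t) * (mat (jor F m) * mat t⁻¹) by
            simp only [mul_assoc], mat_inv_mul]
      simp only [mul_one, mul_sub, sub_mul, mul_assoc]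
  obtain ⟨⟨l, hl⟩, hne⟩ := hN
  refine ⟨⟨l, ?_⟩, fun h => hne ?_⟩
  · show (mat (t * jor F m * t⁻¹) - 1) ^ l = 0
    rw [hconj, show (mat (jor F m) - 1) ^ l = 0 from hl, mul_zero, zero_mul]
  · have h' : (mat (t * jor F m * t⁻¹) - 1) ^ m = 0 := h
    rw [hconj] at h'
    have := congrArg (fun X => mat t⁻¹ * X * mat t) h'
    simp only [mul_zero, zero_mul] at this
    rwa [show mat t⁻¹ * (mat t * (mat (jor F m) - 1) ^ m * mat t⁻¹) * mat t =
      mat t⁻¹ * mat t * (mat (jor F m) - 1) ^ m * (mat t⁻¹ * mat t) by simp only [mul_assoc],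
      mat_inv_mul, one_mul, mul_one] at this

end Cfsg.Agent.H9.SLTwo
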